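import Cfsg.Agent.H231.UniZero
import Cfsg.Agent.H45.Uni.U
import Cfsg.Agent.S0292

/-!
# Theorem (U) for all odd primes, and fixed points of elements of order `r ∣ p ^ n + 1` (helper231)

* `fixAll`, `fixAll_proj` : `2 ≤ m`, `p` any odd prime, `card F = p`: every element of order prime to `p` of
  `Ω_{2m+1}(p)` and `PΩ_{2m+1}(p)` fixes a nonzero vector of every nonzero finite module in characteristic `p`;
* `fixAll_sub` : the same for `PΩ_{2m+1}(F)`, `char F = p`, and images of elements of `Ω_{2m+1}(p)`;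
* `fixed_omega` : (S3536) for `n = 2 ^ k` there is an element of odd prime order `r ∣ p ^ n + 1` of `PΩ_{2n+1}(F)` with a
  fixed point on every elementary abelian `p`-group.
-/

set_option autoImplicit false

namespace Cfsg.Agent.H231.UniZero

open QuadraticMap Cfsg.Agent.LieClassical Cfsg.Agent.LieClassical.OrthCore Cfsg.Agent.LieClassical.OmegaReindex
  Cfsg.Agent.H45.Uni

universe u v

/-- **Theorem (U)** for `E (quadOdd m F)`, all odd primes -/
theorem fixAll_GG {m p : ℕ} (hpp : p.Prime) (hp2 : p ≠ 2) (hm : 2 ≤ m) {F : Type v} [Field F] [Fintype F]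
    (hF : Fintype.card F = p) (x : GG m F) (hx : (orderOf x).Coprime p) : H425.KFix.FixAll.{u} p x := by
  have : Fact p.Prime := ⟨hpp⟩
  have h3 : 2 < p := by have := hpp.two_le; omega
  have hcF : CharP F p := charP_of_card hpp hF
  have hck : CharP (AlgebraicClosure F) p :=
    charP_of_injective_algebraMap (algebraMap F (AlgebraicClosure F)).injective p
  have h2 : (2 : AlgebraicClosure F) ≠ 0 := H41.StDiag.two_ne_zero_of hpp hp2
  intro W _ _ _ _ ρ
  refine exists_fix_GG h3 (by omega) hF (H41.StDiag.stDiag p hpp hp2 hm)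
    (stZero hpp hp2 ?_) (fun W _ _ => H421.Uni.stWt (p := p) (hpp.odd_of_ne_two hp2)) x hx W ρ
  intro g hg
  rcases H41.StDiag.mem_E_or_neg h2 hm hg with h | h
  · exact ⟨g, h, 1, one_ne_zero, fun v => (one_smul _ _).symm⟩
  · refine ⟨_, h, -1, neg_ne_zero.2 one_ne_zero, fun v => ?_⟩
    rw [neg_one_smul]
    rfl

/-- **Theorem (U)**, all odd primes -/
theorem fixAll {m p : ℕ} (hpp : p.Prime) (hp2 : p ≠ 2) (hm : 2 ≤ m) {F : Type v} [Field F] [Fintype F]
    (hF : Fintype.card F = p) (x : Cfsg.Omega F (Cfsg.quadFormOdd m F)) (hx : (orderOf x).Coprime p) :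
    H425.KFix.FixAll.{u} p x := by
  have : Fact p.Prime := ⟨hpp⟩
  have h3 : 2 < p := by have := hpp.two_le; omega
  have hcF : CharP F p := charP_of_card hpp hF
  have hck : CharP (AlgebraicClosure F) p :=
    charP_of_injective_algebraMap (algebraMap F (AlgebraicClosure F)).injective p
  have h2 : (2 : AlgebraicClosure F) ≠ 0 := H41.StDiag.two_ne_zero_of hpp hp2
  refine fixAll_of h3 hm hF (H41.StDiag.stDiag p hpp hp2 hm)
    (stZero hpp hp2 ?_) (fun W _ _ => H421.Uni.stWt (p := p) (hpp.odd_of_ne_two hp2)) x hx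
  intro g hg
  rcases H41.StDiag.mem_E_or_neg h2 hm hg with h | h
  · exact ⟨g, h, 1, one_ne_zero, fun v => (one_smul _ _).symm⟩
  · refine ⟨_, h, -1, neg_ne_zero.2 one_ne_zero, fun v => ?_⟩
    rw [neg_one_smul]
    rfl

/-- **Theorem (U)** for `PΩ_{2m+1}(p)`, all odd primes -/
theorem fixAll_proj {m p : ℕ} (hpp : p.Prime) (hp2 : p ≠ 2) (hm : 2 ≤ m) {F : Type v} [Field F] [Fintype F]
    (hF : Fintype.card F = p) (x : Cfsg.POmega F (Cfsg.quadFormOdd m F)) (hx : (orderOf x).Coprime p) :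
    H425.KFix.FixAll.{u} p x := by
  obtain ⟨y, rfl⟩ := QuotientGroup.mk_surjective x
  -- a power of `y` which has the same image and is of order prime to `p`
  obtain ⟨z, hz, hzo⟩ : ∃ z : Cfsg.Omega F (Cfsg.quadFormOdd m F), (QuotientGroup.mk z : Cfsg.POmega F _) =
      QuotientGroup.mk y ∧ (orderOf z).Coprime p := by
    have hfin : Finite (Cfsg.Omega F (Cfsg.quadFormOdd m F)) := inferInstance
    set n := orderOf y with hn
    have hn0 : n ≠ 0 := (orderOf_pos y).ne'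
    set r := orderOf (QuotientGroup.mk y : Cfsg.POmega F (Cfsg.quadFormOdd m F)) with hr
    obtain ⟨a, b, hb, hnb⟩ := Nat.exists_eq_pow_mul_and_not_dvd hn0 p hpp.ne_one
    have hcop : (p ^ a).Coprime b := (Nat.Prime.coprime_pow_of_not_dvd (m := a) hpp hb).symm
    have hrd : r ∣ b := by
      have h1 : r ∣ n := orderOf_map_dvd (QuotientGroup.mk' _) y
      rw [hnb] at h1
      exact (Nat.Coprime.pow_right a hx).dvd_of_dvd_mul_left h1
    obtain ⟨c, hc1, hc2⟩ := Nat.chineseRemainder hcop 0 1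
    refine ⟨y ^ c, ?_, ?_⟩
    · rw [QuotientGroup.mk_pow]
      have h1 : c ≡ 1 [MOD r] := hc2.of_dvd hrd
      rw [hr] at h1
      have := (pow_eq_pow_iff_modEq (x := (QuotientGroup.mk y : Cfsg.POmega F (Cfsg.quadFormOdd m F)))).2 h1
      rw [this, pow_one]
    · have h2 : p ^ a ∣ c := (Nat.modEq_zero_iff_dvd).1 hc1
      obtain ⟨d, hd⟩ := h2
      have h3 : orderOf (y ^ c) ∣ b := by
        rw [orderOf_dvd_iff_pow_eq_one, ← pow_mul, hd]
        have : p ^ a * d * b = n * d := by rw [hnb]; ring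
        rw [this, pow_mul, hn, pow_orderOf_eq_one, one_pow]
      exact Nat.Coprime.coprime_dvd_left h3 ((hpp.coprime_iff_not_dvd).2 hb).symm
  rw [← hz]
  exact (fixAll hpp hp2 hm hF z hzo).map (QuotientGroup.mk' _)

/-! ### Subfields -/

theorem bcl_injective {m : ℕ} {F K : Type*} [Field F] [Field K] [Algebra F K] :
    Function.Injective (bcl m F K) := by
  intro g h hgh
  apply LinearEquiv.ext
  intro v
  have h1 := bcl_apply (K := K) g v
  rw [hgh, bcl_apply] at h1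
  funext j
  exact ((algebraMap F K).injective (congrFun h1 j)).symm

theorem bc_injective {m : ℕ} {F K : Type*} [Field F] [Field K] [Algebra F K] :
    Function.Injective (bc m F K) := by
  intro g h hgh
  exact Subtype.ext (bcl_injective (K := K) (congrArg Subtype.val hgh))

theorem center_odd {m : ℕ} (hm : 2 ≤ m) {F : Type*} [Field F] [Finite F] (h2 : (2 : F) ≠ 0) :
    Subgroup.center (Cfsg.Omega F (Cfsg.quadFormOdd m F)) = ⊥ := by
  have h3 := OrthCenter.center_omega_eq_bot_of_odd h2 (quadOdd_nondegenerate (F := F) (m := m) h2)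
    (by simp only [Fintype.card_sum, Fintype.card_unit, Fintype.card_fin]; omega)
    (by simp only [Fintype.card_sum, Fintype.card_unit, Fintype.card_fin]; exact ⟨m, by omega⟩)
    (quadOdd_isotropic (by omega))
  rwa [coe_quadOdd] at h3

/-- The subgroup `Ω_{2m+1}(p)` of `PΩ_{2m+1}(F)`. -/
theorem exists_hom {m p : ℕ} [hfp : Fact p.Prime] (hp2 : p ≠ 2) (hm : 2 ≤ m) {F : Type*} [Field F] [Fintype F]
    [CharP F p] :
    ∃ f : Cfsg.Omega (ZMod p) (Cfsg.quadFormOdd m (ZMod p)) →* Cfsg.POmega F (Cfsg.quadFormOdd m F),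
      Function.Injective f := by
  have hpp : p.Prime := hfp.out
  let _ : Algebra (ZMod p) F := ZMod.algebra F p
  have h2F : (2 : F) ≠ 0 := H41.StDiag.two_ne_zero_of hpp hp2
  have h2Z : (2 : ZMod p) ≠ 0 := H41.StDiag.two_ne_zero_of hpp hp2
  obtain ⟨e⟩ := exists_equiv (m := m) (F := F) hm h2F
  obtain ⟨e'⟩ := exists_equiv (m := m) (F := ZMod p) hm h2Z
  refine ⟨(QuotientGroup.mk' (Subgroup.center (Cfsg.Omega F (Cfsg.quadFormOdd m F)))).comp
    (e.symm.toMonoidHom.comp ((bc m (ZMod p) F).comp e'.toMonoidHom)), ?_⟩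
  rw [injective_iff_map_eq_one]
  intro x hx
  have h1 : e.symm (bc m (ZMod p) F (e' x)) ∈ Subgroup.center (Cfsg.Omega F (Cfsg.quadFormOdd m F)) :=
    (QuotientGroup.eq_one_iff _).1 hx
  rw [center_odd hm h2F, Subgroup.mem_bot] at h1
  have h4 : bc m (ZMod p) F (e' x) = 1 := by
    rw [← e.symm.map_one] at h1
    exact e.symm.injective h1
  have h5 : e' x = 1 := bc_injective (by rw [h4, map_one])
  rw [← e'.map_one] at h5
  exact e'.injective h5

/-- Odd primes dividing `p ^ m + 1` divide the order of `Ω_{2m+1}(p)`. -/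
theorem dvd_card {m p : ℕ} (hpp : p.Prime) (hp2 : p ≠ 2) (hm : 3 ≤ m) {r : ℕ} (hr : r.Prime) (hr2 : r ≠ 2)
    (hrm : r ∣ p ^ m + 1) {F : Type*} [Field F] [Fintype F] (hF : Fintype.card F = p) :
    r ∣ Nat.card (Cfsg.Omega F (Cfsg.quadFormOdd m F)) := by
  have hodd := hpp.odd_of_ne_two hp2
  have hS := Cfsg.Agent.S0292.result hF hodd m hm
  have h1 : r ∣ p ^ (2 * m) - 1 := by
    have h2 : p ^ (2 * m) - 1 = (p ^ m - 1) * (p ^ m + 1) := by
      obtain ⟨c, hc⟩ := Nat.exists_eq_add_of_le (Nat.one_le_pow m p hpp.pos)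
      rw [mul_comm 2 m, pow_mul, hc]
      have : (1 + c) ^ 2 = c * (1 + c + 1) + 1 := by ring
      rw [this, Nat.add_sub_cancel, Nat.add_sub_cancel_left]
    rw [h2]
    exact hrm.mul_left _
  have h3 : r ∣ 2 * Nat.card (Cfsg.POmega F (Cfsg.quadFormOdd m F)) := by
    rw [hS]
    apply Dvd.dvd.mul_left
    refine h1.trans ?_
    have h4 := Finset.dvd_prod_of_mem (fun i => p ^ (2 * (i + 1)) - 1) (Finset.mem_range.2 (show m - 1 < m by omega))
    have h5 : m - 1 + 1 = m := by omega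
    simpa only [h5] using h4
  have h4 : r ∣ Nat.card (Cfsg.POmega F (Cfsg.quadFormOdd m F)) := by
    rcases (hr.dvd_mul).1 h3 with h | h
    · exact absurd ((Nat.prime_dvd_prime_iff_eq hr Nat.prime_two).1 h) hr2
    · exact h
  exact h4.trans (Subgroup.card_quotient_dvd_card _)

/-- `(p ^ n + 1) / 2` has an odd prime divisor for even `n`. -/
theorem exists_r {p k : ℕ} (hpp : p.Prime) (hp2 : p ≠ 2) (hk : 1 ≤ k) : ∃ r : ℕ, r.Prime ∧ r ≠ 2 ∧ r ∣ p ^ 2 ^ k + 1 := by
  have hodd := hpp.odd_of_ne_two hp2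
  obtain ⟨j, rfl⟩ : ∃ j, k = j + 1 := ⟨k - 1, by omega⟩
  have h1 : Odd (p ^ 2 ^ j) := hodd.pow
  obtain ⟨c, hc⟩ := h1
  have hp3 : 3 ≤ p := by have := hpp.two_le; omega
  have h2 : p ^ 2 ^ (j + 1) + 1 = 2 * (2 * (c * (c + 1)) + 1) := by
    rw [pow_succ, pow_mul, hc]
    ring
  have hc0 : 1 ≤ c := by
    have : 2 < p ^ 2 ^ j := lt_of_lt_of_le hp3 (Nat.le_self_pow (by positivity) p)
    omega
  have h3 : 2 * (c * (c + 1)) + 1 ≠ 1 := by
    have : 0 < c * (c + 1) := by positivity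
    omega
  obtain ⟨r, hr, hrd⟩ := Nat.exists_prime_and_dvd h3
  refine ⟨r, hr, ?_, ?_⟩
  · rintro rfl
    omega
  · rw [h2]
    exact hrd.mul_left _

/-- **S3536, the own-characteristic step for `Ω_{2n+1}`, `n = 2 ^ k`.** -/
theorem fixed_omega {F : Type*} [Field F] [Fintype F] {p a k : ℕ} (hp : p.Prime) (hp2 : p ≠ 2) (ha : Odd a)
    (hF : Fintype.card F = p ^ a) (hk : 2 ≤ k) {W : Type*} [CommGroup W] [Finite W] [Nontrivial W]
    (hW : ∀ w : W, w ^ p = 1) (φ : Cfsg.POmega F (Cfsg.quadFormOdd (2 ^ k) F) →* MulAut W) :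
    ∃ (r : ℕ) (x : Cfsg.POmega F (Cfsg.quadFormOdd (2 ^ k) F)) (w : W), r.Prime ∧ r ≠ 2 ∧ r ∣ p ^ 2 ^ k + 1 ∧
      orderOf x = r ∧ w ≠ 1 ∧ φ x w = w := by
  have : Fact p.Prime := ⟨hp⟩
  have hcF : CharP F p := by
    obtain ⟨q, hq⟩ := CharP.exists F
    obtain ⟨n, hqp, hn⟩ := FiniteField.card F q
    rw [hF] at hn
    have : q = p := by
      have h1 : q ∣ p ^ a := by rw [hn]; exact dvd_pow_self q n.ne_zero
      exact (Nat.prime_dvd_prime_iff_eq hqp hp).1 (hqp.dvd_of_dvd_pow h1)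
    rwa [this] at hq
  have hm : 4 ≤ 2 ^ k := by
    calc 4 = 2 ^ 2 := rfl
      _ ≤ 2 ^ k := Nat.pow_le_pow_right two_pos hk
  obtain ⟨r, hr, hr2, hrd⟩ := exists_r (k := k) hp hp2 (by omega)
  have hcard : Fintype.card (ZMod p) = p := ZMod.card p
  have h1 := dvd_card hp hp2 (by omega) hr hr2 hrd hcard
  have : Fact r.Prime := ⟨hr⟩
  have : Finite (Cfsg.Omega (ZMod p) (Cfsg.quadFormOdd (2 ^ k) (ZMod p))) := inferInstance
  obtain ⟨y, hy⟩ := exists_prime_orderOf_dvd_card' r h1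
  obtain ⟨f, hf⟩ := exists_hom (p := p) (m := 2 ^ k) hp2 (by omega) (F := F)
  have hrp : r ≠ p := by
    rintro rfl
    have h3 : r ∣ r ^ 2 ^ k := dvd_pow_self r (by positivity)
    have h4 := (Nat.dvd_add_right h3).1 hrd
    exact hr.one_lt.ne' (Nat.dvd_one.1 h4)
  have hU := fixAll hp hp2 (by omega) hcard y (by rw [hy]; exact (Nat.coprime_primes hr hp).2 hrp)
  obtain ⟨w, hw1, hw⟩ := (hU.map f).mul hW φ
  exact ⟨r, f y, w, hr, hr2, hrd, by rw [orderOf_injective f hf, hy], hw1, hw⟩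

end Cfsg.Agent.H231.UniZero
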